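import Cfsg.Agent.H113.PSL.Main
import Cfsg.Agent.CharDeep.DegreeBound
import Cfsg.Agent.S0243

/-!
# Characters of `GL_n(q)` with prescribed central character (S4816, RIM-L-PSL; helper886)

`μ : Fˣ →* ℂˣ` arbitrary.

* `exists_theta_mu` : a regular character of `Lˣ`, `[L : F] = n ≥ 2`, extending `μ`;
* `exists_cus` : a cuspidal irreducible character of `GL_n(q)` of degree `∏_{0<i<n} (q^i - 1)` with central character `μ`;
* `exists_hyp` : `n ≥ 3`, degree `(q^n - 1)/(q - 1) ∏_{0<i<n-1} (q^i - 1)`, central character `μ`;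
* `exists_two` : degree `q + 1` for `GL_2(q)`, central character `α β`, `α ≠ β`;
* `exists_gl` : `n ≥ 3`, `p` a prime divisor of `|PSL_n(q)|`, `p ∤ q`: degree divisible by `p * gcd(n, q - 1)`.
-/

set_option autoImplicit false
set_option linter.unusedSectionVars false
set_option linter.style.haveILetI false

open Cfsg Matrix

namespace Cfsg.Agent.H886.RIM

open Cfsg.Agent.H53.HC Cfsg.Agent.Characters MulAction Module
open Cfsg.Agent.H113.PSL.Para Cfsg.Agent.H113.PSL.Pass Cfsg.Agent.H113.PSL.Degrees Cfsg.Agent.H113.PSL.Main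
open Cfsg.Agent.H139.Cusp

universe u v w

/-! ### characters of the multiplicative group -/

section theta

variable {F : Type u} [Field F] [Finite F] {L : Type w} [Field L] [Finite L] [Algebra F L]

/-- the restrictions of the powers of an injective character are all characters -/
theorem exists_pow_mu {θ : L →*₀ ℂ} (hθ : Function.Injective θ) (μ : Fˣ →* ℂˣ) :
    ∃ k : ℕ, 1 ≤ k ∧ k ≤ Nat.card F - 1 ∧ ∀ c : Fˣ, θ (algebraMap F L c) ^ k = μ c := by
  have hq : 1 < Nat.card F := Finite.one_lt_card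
  obtain ⟨γ, hγt⟩ := IsCyclic.exists_generator (α := Fˣ)
  have hγ : orderOf γ = Nat.card Fˣ := orderOf_eq_card_of_forall_mem_zpowers hγt
  have hcF : Nat.card Fˣ = Nat.card F - 1 := Nat.card_units F
  have hprim : IsPrimitiveRoot (θ (algebraMap F L γ)) (Nat.card F - 1) := by
    refine ⟨?_, fun m hm => ?_⟩
    · rw [← map_pow, ← map_pow, ← Units.val_pow_eq_pow_val, ← hcF, pow_card_eq_one', Units.val_one, map_one, map_one]
    · rw [← hcF, ← hγ]
      apply orderOf_dvd_of_pow_eq_one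
      apply Units.ext
      rw [Units.val_pow_eq_pow_val, Units.val_one]
      apply (algebraMap F L).injective
      apply hθ
      rw [map_pow, map_pow, hm, map_one, map_one]
  have hne : NeZero (Nat.card F - 1) := ⟨by omega⟩
  have hμ : ((μ γ : ℂˣ) : ℂ) ^ (Nat.card F - 1) = 1 := by
    rw [← Units.val_pow_eq_pow_val, ← map_pow, ← hcF, pow_card_eq_one', map_one, Units.val_one]
  obtain ⟨j, hj, hj'⟩ := hprim.eq_pow_of_pow_eq_one hμ
  -- on the generator it is enough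
  have key : ∀ k : ℕ, θ (algebraMap F L γ) ^ k = μ γ → ∀ c : Fˣ, θ (algebraMap F L c) ^ k = μ c := by
    intro k hk c
    obtain ⟨i, rfl⟩ := (isOfFinOrder_of_finite γ).mem_powers_iff_mem_zpowers.2 (hγt c)
    simp only [map_pow, Units.val_pow_eq_pow_val]
    rw [← hk, ← pow_mul, ← pow_mul, mul_comm]
  rcases Nat.eq_zero_or_pos j with h0 | h0
  · refine ⟨Nat.card F - 1, by omega, le_rfl, key _ ?_⟩
    rw [← hj', h0, pow_zero, hprim.pow_eq_one]
  · exact ⟨j, h0, by omega, key _ hj'⟩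

/-- **a regular character extending `μ`** -/
theorem exists_theta_mu {n : ℕ} (hL : Module.finrank F L = n) (μ : Fˣ →* ℂˣ) :
    ∃ θ : L →*₀ ℂ, (∀ c : Fˣ, θ (algebraMap F L c) = μ c) ∧ Regular F n θ := by
  obtain ⟨θ, hθ⟩ := Cfsg.Agent.H139.Cusp.exists_theta L
  obtain ⟨k, h1, h2, h3⟩ := exists_pow_mu hθ μ
  have hk : k ≠ 0 := by omega
  refine ⟨powTheta θ k hk, fun c => ?_, ?_⟩
  · rw [powTheta_apply, h3]
  · rw [regular_powTheta_iff hθ hk hL]
    intro i hi hin hd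
    have hq : 1 < Nat.card F := Finite.one_lt_card
    have h4 : 1 < Nat.card F ^ i := Nat.one_lt_pow (by omega) hq
    have h5 : 0 < k * (Nat.card F ^ i - 1) := Nat.mul_pos (by omega) (by omega)
    have h6 := Nat.le_of_dvd h5 hd
    have h7 : k * (Nat.card F ^ i - 1) ≤ (Nat.card F - 1) * (Nat.card F ^ i - 1) := Nat.mul_le_mul_right _ h2
    have h8 : Nat.card F ^ (i + 1) ≤ Nat.card F ^ n := Nat.pow_le_pow_right (by omega) (by omega)
    have h9 : (Nat.card F - 1) * (Nat.card F ^ i - 1) + (Nat.card F - 1) + Nat.card F ^ i = Nat.card F ^ (i + 1) := by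
      obtain ⟨a, ha⟩ : ∃ a, Nat.card F = a + 1 := ⟨Nat.card F - 1, by omega⟩
      obtain ⟨b, hb⟩ : ∃ b, Nat.card F ^ i = b + 1 := ⟨Nat.card F ^ i - 1, by omega⟩
      rw [pow_succ, hb, ha, Nat.add_sub_cancel, Nat.add_sub_cancel]
      ring
    omega

end theta

/-! ### characters of `GL_n(q)` -/

section gl

variable {F : Type u} [Field F] [Fintype F]

/-- the scalars are central -/
theorem scalar_mem_center {n : ℕ} (c : Fˣ) : GeneralLinearGroup.scalar (Fin n) c ∈ Subgroup.center (GL (Fin n) F) := by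
  rw [Subgroup.mem_center_iff]
  intro g
  apply Units.ext
  rw [Units.val_mul, Units.val_mul, GeneralLinearGroup.coe_scalar]
  exact (Matrix.scalar_commute (c : F) (fun r => Commute.all _ _) (g : Matrix (Fin n) (Fin n) F)).symm.eq

/-- the value at the scalars is enough -/
theorem central_of_scalar {n : ℕ} {χ : GL (Fin n) F → ℂ} (hχ : IsIrrCharacter _ χ) {μ : Fˣ →* ℂˣ}
    (h : ∀ c : Fˣ, χ (GeneralLinearGroup.scalar (Fin n) c) = μ c * χ 1) (c : Fˣ) (g : GL (Fin n) F) :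
    χ (GeneralLinearGroup.scalar (Fin n) c * g) = μ c * χ g := by
  classical
  have : Fintype (GL (Fin n) F) := Fintype.ofFinite _
  obtain ⟨w, -, hw⟩ := CharDeep.DegreeBound.exists_omega hχ (scalar_mem_center (n := n) c)
  have h1 := hw 1
  rw [one_mul, h c] at h1
  have h2 := mul_right_cancel₀ (Core.isIrr_apply_one_ne_zero hχ) h1
  have h3 : GeneralLinearGroup.scalar (Fin n) c * g = g * GeneralLinearGroup.scalar (Fin n) c :=
    (Subgroup.mem_center_iff.1 (scalar_mem_center (n := n) c) g).symm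
  rw [h3, hw g, h2]

/-- **cuspidal characters** -/
theorem exists_cus {n : ℕ} (hn : 1 ≤ n) (μ : Fˣ →* ℂˣ) :
    ∃ χ : GL (Fin n) F → ℂ, IsIrrCharacter _ χ ∧ IsCusp χ ∧
      χ 1 = ((∏ i ∈ Finset.range (n - 1), (Fintype.card F ^ (i + 1) - 1) : ℕ) : ℂ) ∧
      ∀ (c : Fˣ) (g : GL (Fin n) F), χ (GeneralLinearGroup.scalar (Fin n) c * g) = μ c * χ g := by
  classical
  obtain ⟨p, hp⟩ := CharP.exists F
  have hpp : Fact p.Prime := ⟨CharP.char_is_prime F p⟩
  have hnz : NeZero n := ⟨by omega⟩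
  let L := FiniteField.Extension F p n
  have hL : Module.finrank F L = n := FiniteField.finrank_extension F p n
  obtain ⟨θ, h1, h2⟩ := exists_theta_mu (F := F) (L := L) hL μ
  refine ⟨psi L θ, psi_isIrr θ hL h2, psi_isCusp L θ, ?_, ?_⟩
  · rw [psi_one L θ (by omega), degP, Nat.card_eq_fintype_card]
  · intro c g
    rw [psi_scalar θ hL c g, h1 c]

/-- the value of a parabolically induced character at a scalar -/
theorem paraChar_scalar' {V : Type v} [AddCommGroup V] [Module F V] {a b : ℕ} {G : Type w} [Group G]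
    (ρ : G →* (V ≃ₗ[F] V)) [Fintype (dimSet F V a)] {Ψ : GL (Fin a) F → ℂ} (hΨ : IsClassFunction _ Ψ)
    {Φ : GL (Fin b) F → ℂ} (hΦ : IsClassFunction _ Φ) [FiniteDimensional F V] (hn : finrank F V = a + b) {z : G}
    {c : Fˣ} (hz : ∀ v, ρ z v = (c : F) • v) :
    paraChar ρ Ψ Φ z = (Nat.card (dimSet F V a) : ℂ) *
      (Ψ (GeneralLinearGroup.scalar (Fin a) c) * Φ (GeneralLinearGroup.scalar (Fin b) c)) := by
  classical
  unfold paraChar
  have h1 : ∀ W : dimSet F V a, paraTerm ρ Ψ Φ z W.1 =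
      Ψ (GeneralLinearGroup.scalar (Fin a) c) * Φ (GeneralLinearGroup.scalar (Fin b) c) := by
    intro W
    have h : W.1.map (ρ z : V →ₗ[F] V) = W.1 := map_eq_of_le ρ fun w hw => by
      rw [hz]; exact W.1.smul_mem _ hw
    have hW : finrank F W.1 = a := W.2
    have hW' : finrank F (V ⧸ W.1) = b := by
      have := Submodule.finrank_quotient_add_finrank W.1
      omega
    rw [paraTerm_of ρ Ψ Φ h, cl_eq hΨ (finBasisOfFinrankEq F W.1 hW), cl_eq hΦ (finBasisOfFinrankEq F _ hW'),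
      glE_smul _ c _ (fun w => Subtype.ext (hz w)), glE_smul _ c _ (fun w => by
        obtain ⟨w, rfl⟩ := Submodule.Quotient.mk_surjective _ w
        rw [quo_mk, hz]
        rfl)]
  rw [Finset.sum_congr rfl fun W _ => h1 W, Finset.sum_const, Finset.card_univ, ← Nat.card_eq_fintype_card,
    nsmul_eq_mul]

/-- the linear character of `GL_1` -/
theorem lin_one (μ : Fˣ →* ℂˣ) : ∃ Φ : GL (Fin 1) F → ℂ, IsIrrCharacter _ Φ ∧ Φ 1 = 1 ∧
    ∀ c : Fˣ, Φ (GeneralLinearGroup.scalar (Fin 1) c) = μ c := by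
  refine ⟨fun g => ((μ.comp GeneralLinearGroup.det) g : ℂˣ), ?_, ?_, ?_⟩
  · have h := Cfsg.Agent.CharactersDeep.ExtUnique.isIrr_mul_hom (Core.isIrr_one (G := GL (Fin 1) F))
      (μ.comp GeneralLinearGroup.det)
    have h2 : (fun g : GL (Fin 1) F => (1 : GL (Fin 1) F → ℂ) g * ((μ.comp GeneralLinearGroup.det) g : ℂ)) =
        fun g => ((μ.comp GeneralLinearGroup.det) g : ℂ) := by
      funext g
      rw [Pi.one_apply, one_mul]
    rwa [h2] at h
  · simp
  · intro c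
    have h1 : GeneralLinearGroup.det (GeneralLinearGroup.scalar (Fin 1) c) = c := by
      apply Units.ext
      simp
    show (((μ (GeneralLinearGroup.det (GeneralLinearGroup.scalar (Fin 1) c))) : ℂˣ) : ℂ) = μ c
    rw [h1]

/-- **Harish-Chandra induction from a maximal parabolic subgroup**, with the central character -/
theorem exists_parab {n a b : ℕ} (hnab : n = a + b) {α β : Fˣ →* ℂˣ} {Ψ : GL (Fin a) F → ℂ}
    (hΨ : IsIrrCharacter _ Ψ) (hc : IsCusp Ψ) {Φ : GL (Fin b) F → ℂ} (hΦ : IsIrrCharacter _ Φ)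
    (hα : ∀ c : Fˣ, Ψ (GeneralLinearGroup.scalar (Fin a) c) = α c * Ψ 1)
    (hβ : ∀ c : Fˣ, Φ (GeneralLinearGroup.scalar (Fin b) c) = β c * Φ 1)
    (hcase : b < a ∨ ∃ e : a = b, Ψ ≠ e ▸ Φ) {d : ℕ} (hd : Ψ 1 * Φ 1 = d) :
    ∃ χ : GL (Fin n) F → ℂ, IsIrrCharacter _ χ ∧
      χ 1 = ((Nat.card {W : Submodule F (Fin n → F) // finrank F W = a} * d : ℕ) : ℂ) ∧
      ∀ (c : Fˣ) (g : GL (Fin n) F), χ (GeneralLinearGroup.scalar (Fin n) c * g) = (α * β) c * χ g := by
  classical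
  let ρ : GL (Fin n) F →* ((Fin n → F) ≃ₗ[F] (Fin n → F)) := (glE (Pi.basisFun F (Fin n))).symm.toMonoidHom
  have hρ : Function.Surjective ρ := (glE (Pi.basisFun F (Fin n))).symm.surjective
  have hfr : finrank F (Fin n → F) = a + b := by rw [finrank_fin_fun, hnab]
  letI : Fintype (dimSet F (Fin n → F) a) := Fintype.ofFinite _
  letI : Fintype (GL (Fin n) F) := Fintype.ofFinite _
  have hirr : IsIrrCharacter _ (paraChar ρ Ψ Φ) := by
    rcases hcase with h | ⟨rfl, h⟩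
    · exact isIrr_paraChar ρ hρ h hfr hΨ hc hΦ
    · exact isIrr_paraChar_eq ρ hρ hfr hΨ hc hΦ h
  have c1 := Core.isIrr_isClassFunction hΨ
  have c2 := Core.isIrr_isClassFunction hΦ
  have hone := paraChar_one ρ c1 c2 hfr
  refine ⟨paraChar ρ Ψ Φ, hirr, ?_, ?_⟩
  · rw [hone, hd]
    push_cast
    rfl
  · refine central_of_scalar hirr fun c => ?_
    have e1 : ρ (GeneralLinearGroup.scalar (Fin n) c) = LinearEquiv.smulOfUnit c := by
      change (glE (Pi.basisFun F (Fin n))).symm _ = _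
      rw [MulEquiv.symm_apply_eq]
      exact (glE_smul _ c _ (fun w => rfl)).symm
    rw [paraChar_scalar' ρ c1 c2 hfr (c := c) (fun v => by rw [e1]; rfl), hone, hα, hβ, MonoidHom.mul_apply,
      Units.val_mul]
    ring

/-- **degree `(q^n - 1)/(q - 1) ∏_{0<i<n-1} (q^i - 1)`** -/
theorem exists_hyp {m : ℕ} (hm : 2 ≤ m) (μ : Fˣ →* ℂˣ) :
    ∃ (χ : GL (Fin (m + 1)) F → ℂ) (N : ℕ), IsIrrCharacter _ χ ∧
      N * (Fintype.card F - 1) = Fintype.card F ^ (m + 1) - 1 ∧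
      χ 1 = ((N * ∏ i ∈ Finset.range (m - 1), (Fintype.card F ^ (i + 1) - 1) : ℕ) : ℂ) ∧
      ∀ (c : Fˣ) (g : GL (Fin (m + 1)) F), χ (GeneralLinearGroup.scalar (Fin (m + 1)) c * g) = μ c * χ g := by
  obtain ⟨Ψ, h1, h2, h3, h4⟩ := exists_cus (F := F) (n := m) (by omega) 1
  obtain ⟨Φ, h5, h6, h7⟩ := lin_one μ
  obtain ⟨χ, h8, h9, h10⟩ := exists_parab (n := m + 1) (a := m) (b := 1) rfl (α := 1) (β := μ) h1 h2 h5
    (fun c => by simpa using h4 c 1) (fun c => by rw [h7, h6, mul_one]) (Or.inl (by omega))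
    (d := ∏ i ∈ Finset.range (m - 1), (Fintype.card F ^ (i + 1) - 1)) (by rw [h3, h6, mul_one])
  exact ⟨χ, _, h8, card_hyper (by rw [finrank_fin_fun]), h9, by simpa using h10⟩

/-- **degree `q + 1`** for `GL_2(q)` -/
theorem exists_two {α β : Fˣ →* ℂˣ} (hne : α ≠ β) :
    ∃ χ : GL (Fin 2) F → ℂ, IsIrrCharacter _ χ ∧ χ 1 = ((Fintype.card F + 1 : ℕ) : ℂ) ∧
      ∀ (c : Fˣ) (g : GL (Fin 2) F), χ (GeneralLinearGroup.scalar (Fin 2) c * g) = (α * β) c * χ g := by
  obtain ⟨Ψ, h1, h2, h3, h4⟩ := exists_cus (F := F) (n := 1) le_rfl α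
  obtain ⟨Φ, h5, -, h6, h7⟩ := exists_cus (F := F) (n := 1) le_rfl β
  simp only [Nat.sub_self, Finset.range_zero, Finset.prod_empty, Nat.cast_one] at h3 h6
  have hne' : Ψ ≠ Φ := by
    intro h15
    apply hne
    ext c
    have h13 := h4 c 1
    have h14 := h7 c 1
    rw [h15, h14, h6, mul_one, mul_one] at h13
    exact h13.symm
  obtain ⟨χ, h8, h9, h10⟩ := exists_parab (n := 2) (a := 1) (b := 1) rfl (α := α) (β := β) h1 h2 h5
    (fun c => by simpa using h4 c 1) (fun c => by simpa using h7 c 1) (Or.inr ⟨rfl, hne'⟩)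
    (d := 1) (by rw [h3, h6]; norm_num)
  refine ⟨χ, h8, ?_, h10⟩
  rw [h9, mul_one]
  have h11 := card_hyper (F := F) (V := Fin 2 → F) (m := 1) (by rw [finrank_fin_fun])
  have hq := Fintype.one_lt_card (α := F)
  have h12 : Nat.card {W : Submodule F (Fin 2 → F) // finrank F W = 1} = Fintype.card F + 1 := by
    apply Nat.eq_of_mul_eq_mul_right (Nat.sub_pos_of_lt hq)
    rw [h11]
    have := Nat.sq_sub_sq (Fintype.card F) 1
    rw [one_pow] at this
    exact this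
  rw [h12]

/-- `gcd(n, q - 1)` divides `(q^n - 1)/(q - 1)` -/
theorem gcd_dvd {q n N : ℕ} (hq : 1 < q) (hN : N * (q - 1) = q ^ n - 1) : Nat.gcd n (q - 1) ∣ N := by
  have h1 : N = ∑ j ∈ Finset.range n, q ^ j := by
    apply Nat.eq_of_mul_eq_mul_right (Nat.sub_pos_of_lt hq)
    rw [hN]
    exact (geom_sum_mul_of_one_le hq.le n).symm
  have h2 : Nat.gcd n (q - 1) ∣ q - 1 := Nat.gcd_dvd_right _ _
  rw [h1, ← ZMod.natCast_eq_zero_iff]
  have h3 : ((q : ℕ) : ZMod (Nat.gcd n (q - 1))) = 1 := by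
    have h4 : ((q - 1 : ℕ) : ZMod (Nat.gcd n (q - 1))) = 0 := (ZMod.natCast_eq_zero_iff _ _).2 h2
    rw [Nat.cast_sub hq.le, Nat.cast_one] at h4
    exact sub_eq_zero.1 h4
  push_cast
  rw [h3]
  simp only [one_pow, Finset.sum_const, Finset.card_range, nsmul_eq_mul, mul_one]
  exact (ZMod.natCast_eq_zero_iff _ _).2 (Nat.gcd_dvd_left _ _)

/-- **`n ≥ 3`**: a character with degree divisible by `p * gcd(n, q - 1)` and prescribed central character -/
theorem exists_gl {n : ℕ} (hn : 3 ≤ n) {p : ℕ} (hp : p.Prime) {i : ℕ} (hi : 1 ≤ i) (hin : i ≤ n)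
    (hpi : p ∣ Fintype.card F ^ i - 1) (μ : Fˣ →* ℂˣ) :
    ∃ (χ : GL (Fin n) F → ℂ) (d : ℕ), IsIrrCharacter _ χ ∧ χ 1 = d ∧
      p * Nat.gcd n (Fintype.card F - 1) ∣ d ∧
      ∀ (c : Fˣ) (g : GL (Fin n) F), χ (GeneralLinearGroup.scalar (Fin n) c * g) = μ c * χ g := by
  have hq := Fintype.one_lt_card (α := F)
  have hg : Nat.gcd n (Fintype.card F - 1) ∣ Fintype.card F - 1 := Nat.gcd_dvd_right _ _
  obtain ⟨m, rfl⟩ : ∃ m, n = m + 1 := ⟨n - 1, by omega⟩
  -- the factors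
  have hfac : ∀ {M j : ℕ}, 1 ≤ j → j ≤ M → p ∣ Fintype.card F ^ j - 1 →
      p ∣ ∏ i ∈ Finset.range M, (Fintype.card F ^ (i + 1) - 1) := by
    intro M j h1 h2 h3
    refine h3.trans ?_
    have h4 := Finset.dvd_prod_of_mem (fun i => Fintype.card F ^ (i + 1) - 1) (Finset.mem_range.2 (show j - 1 < M by omega))
    simp only [show j - 1 + 1 = j by omega] at h4
    exact h4
  by_cases h1 : ∃ j, 1 ≤ j ∧ j ≤ m - 1 ∧ p ∣ Fintype.card F ^ j - 1
  · obtain ⟨j, hj1, hj2, hj3⟩ := h1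
    obtain ⟨χ, N, h2, h3, h4, h5⟩ := exists_hyp (F := F) (m := m) (by omega) μ
    refine ⟨χ, _, h2, h4, ?_, h5⟩
    rw [mul_comm]
    exact mul_dvd_mul (gcd_dvd hq h3) (hfac hj1 hj2 hj3)
  push Not at h1
  have hp1 : ¬ p ∣ Fintype.card F - 1 := by
    have := h1 1 le_rfl (by omega)
    rwa [pow_one] at this
  have hcop : Nat.Coprime p (Nat.gcd (m + 1) (Fintype.card F - 1)) :=
    (Nat.Prime.coprime_iff_not_dvd hp).2 fun h => hp1 (h.trans hg)
  rcases (show i = m + 1 ∨ i = m by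
    by_contra hcon
    exact h1 i hi (by omega) hpi) with rfl | rfl
  · obtain ⟨χ, N, h2, h3, h4, h5⟩ := exists_hyp (F := F) (m := m) (by omega) μ
    refine ⟨χ, _, h2, h4, ?_, h5⟩
    have h6 : p ∣ N := by
      rw [← h3] at hpi
      exact (hp.dvd_mul.1 hpi).resolve_right hp1
    exact (hcop.mul_dvd_of_dvd_of_dvd h6 (gcd_dvd hq h3)).trans (dvd_mul_right _ _)
  · obtain ⟨χ, h2, -, h4, h5⟩ := exists_cus (F := F) (n := i + 1) (by omega) μ
    refine ⟨χ, _, h2, h4, ?_, h5⟩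
    rw [Nat.add_sub_cancel]
    refine hcop.mul_dvd_of_dvd_of_dvd (hfac (by omega) le_rfl hpi) (hg.trans ?_)
    have h6 := Finset.dvd_prod_of_mem (fun i => Fintype.card F ^ (i + 1) - 1) (Finset.mem_range.2 (show 0 < i by omega))
    simpa using h6

/-- the primes of `|PSL_n(q)|` -/
theorem exists_exp {n : ℕ} (hn : 2 ≤ n) {p : ℕ} (hp : p.Prime) (hpF : ¬ p ∣ Fintype.card F)
    (hd : p ∣ Nat.card (ProjectiveSpecialLinearGroup (Fin n) F)) :
    ∃ i, 1 ≤ i ∧ i ≤ n ∧ p ∣ Fintype.card F ^ i - 1 := by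
  have h1 := Cfsg.Agent.S0243.result (F := F) rfl n hn
  have h2 : p ∣ ∏ i : Fin n, (Fintype.card F ^ n - Fintype.card F ^ (i : ℕ)) := by
    rw [← h1]
    exact (hd.mul_left _).mul_left _
  obtain ⟨i, -, hi⟩ := (Prime.dvd_finsetProd_iff hp.prime _).1 h2
  refine ⟨n - i, by omega, by omega, ?_⟩
  have h3 : Fintype.card F ^ n - Fintype.card F ^ (i : ℕ) = Fintype.card F ^ (i : ℕ) * (Fintype.card F ^ (n - i) - 1) := by
    rw [Nat.mul_sub, mul_one, ← pow_add, Nat.add_sub_cancel' i.2.le]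
  rw [h3] at hi
  exact (hp.dvd_mul.1 hi).resolve_left fun h => hpF (hp.dvd_of_dvd_pow h)

end gl

end Cfsg.Agent.H886.RIM
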